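import Cfsg.Agent.ZStar.KleinOrder
import Cfsg.Agent.CharBasics.SqrtCount

/-!
Groups of order `4 g₀` without a normal 2-complement, and the indicators in their principal 2-block.
-/

set_option autoImplicit false
set_option linter.style.haveILetI false
set_option linter.unusedSectionVars false
set_option linter.deprecated false

namespace CfsgLib.ZStar

open Cfsg CfsgLib.CharBasics CfsgLib.BrauerInd

universe u

variable {G : Type u} [Group G] [Finite G] [Fact (Nat.Prime 2)]

/-- No normal 2-complement and Sylow order four: Klein four and one class of involutions. -/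
theorem klein_setup {g₀ : ℕ} (hg₀ : Odd g₀) (hG : Nat.card G = 4 * g₀)
    (hnc : ¬ ∃ N : Subgroup G, N.Normal ∧ Nat.card N = g₀) (P : Sylow 2 G) :
    IsKleinFour (P : Subgroup G) ∧ ∀ s t : G, orderOf s = 2 → orderOf t = 2 → IsConj s t := by
  have hcard4 : Nat.card (P : Subgroup G) = 4 := by
    rw [P.card_eq_multiplicity, hG, Nat.factorization_mul (by norm_num) (by obtain ⟨k, hk⟩ := hg₀; omega),
      Finsupp.add_apply, show (4 : ℕ) = 2 ^ 2 by norm_num, Nat.prime_two.factorization_pow, Finsupp.single_eq_same,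
      Nat.factorization_eq_zero_of_not_dvd (fun h => Nat.not_even_iff_odd.2 hg₀ (even_iff_two_dvd.2 h))]
  have hcompl : Subgroup.normalizer ((P : Subgroup G) : Set G) ≤ Subgroup.centralizer ((P : Subgroup G) : Set G) → False := by
    intro hle
    have hK := MonoidHom.ker_transferSylow_isComplement' P hle
    refine hnc ⟨(MonoidHom.transferSylow P hle).ker, inferInstance, ?_⟩
    have := hK.card_mul
    rw [hcard4, hG] at this
    omega
  have hKlein : IsKleinFour (P : Subgroup G) := by
    refine ⟨hcard4, ?_⟩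
    by_contra hexp
    have hcyc : IsCyclic (P : Subgroup G) := by
      have h2 : ∃ a : (P : Subgroup G), a ^ 2 ≠ 1 := by
        by_contra hno
        push Not at hno
        refine hexp ?_
        have hd := Monoid.exponent_dvd_of_forall_pow_eq_one hno
        rcases (Nat.dvd_prime Nat.prime_two).1 hd with h | h
        · rw [Monoid.exp_eq_one_iff] at h
          have := Nat.card_of_subsingleton (1 : (P : Subgroup G))
          omega
        · exact h
      obtain ⟨a, ha⟩ := h2
      refine isCyclic_of_orderOf_eq_card a ?_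
      rw [hcard4]
      have h4 : orderOf a ∣ 4 := hcard4 ▸ orderOf_dvd_natCard a
      have h5 : ¬ orderOf a ∣ 2 := fun h => ha (orderOf_dvd_iff_pow_eq_one.1 h)
      have h6 : orderOf a ≤ 4 := Nat.le_of_dvd (by norm_num) h4
      have h7 : 0 < orderOf a := orderOf_pos a
      interval_cases (orderOf a) <;> simp_all (config := { decide := true })
    refine hcompl (IsCyclic.normalizer_le_centralizer ((Nat.minFac_eq_two_iff _).2 ?_) hcyc)
    omega
  have hone : ∀ s t : G, orderOf s = 2 → orderOf t = 2 → IsConj s t := by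
    have hne : ¬ Function.Injective (CfsgLib.Invol.kleinMap P hKlein) := by
      intro hinj
      refine hcompl fun n hn => Subgroup.mem_centralizer_iff.2 fun w hw => ?_
      by_cases hw1 : w = 1
      · subst hw1; simp
      have hnw : n * w * n⁻¹ ∈ (P : Subgroup G) := (Subgroup.mem_normalizer_iff.1 hn w).1 hw
      have hnw1 : n * w * n⁻¹ ≠ 1 := fun e => hw1 (conj_eq_one_iff.1 e)
      have e := @hinj ⟨⟨w, hw⟩, fun e => hw1 (congrArg Subtype.val e)⟩ ⟨⟨_, hnw⟩, fun e => hnw1 (congrArg Subtype.val e)⟩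
        (Subtype.ext (ConjClasses.mk_eq_mk_iff_isConj.2 (isConj_iff.2 ⟨n, rfl⟩)))
      have e' : w = n * w * n⁻¹ := congrArg (fun x : {a : (P : Subgroup G) // a ≠ 1} => (x.1 : G)) e
      exact eq_mul_inv_iff_mul_eq.1 e'
    have hlt : Nat.card (CfsgLib.Invol.InvClass G) < 3 := by
      rw [← CfsgLib.Invol.card_kleinDom P hKlein]
      refine lt_of_le_of_ne (Nat.card_le_card_of_surjective _ (CfsgLib.Invol.kleinMap_surjective P hKlein)) fun e => hne ?_
      exact ((Nat.bijective_iff_surjective_and_card _).2 ⟨CfsgLib.Invol.kleinMap_surjective P hKlein, e.symm⟩).1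
    have h1 : Nat.card (CfsgLib.Invol.InvClass G) = 1 :=
      (CfsgLib.Invol.card_invClass_eq_one_or_three P hKlein).resolve_right hlt.ne
    intro s t hs ht
    have := (Nat.card_eq_one_iff_unique.1 h1).1.elim
      (⟨ConjClasses.mk s, s, hs, rfl⟩ : CfsgLib.Invol.InvClass G) ⟨ConjClasses.mk t, t, ht, rfl⟩
    exact ConjClasses.mk_eq_mk_iff_isConj.1 (congrArg Subtype.val this)
  exact ⟨hKlein, hone⟩

/-- The indicator relation. -/
theorem klein_indicator [Fintype G] {P : Sylow 2 G} (hP : IsKleinFour (P : Subgroup G))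
    {T : Finset (IrrCharacter G)} {a : IrrCharacter G → ℤ}
    (hrel : ∀ y : G, ¬ 2 ∣ orderOf y → 1 + ∑ χ ∈ T, (a χ : ℂ) * (χ : G → ℂ) y = 0) :
    1 + ∑ χ ∈ T, (a χ : ℂ) * ind (χ : G → ℂ) = 0 := by
  have hreg : ∀ g : G, ¬ 2 ∣ orderOf (g * g) := by
    intro g hd
    obtain ⟨h1, h2, h3, h4, -, -⟩ := part_spec (p := 2) g
    have e : g * g = prest 2 g * prest 2 g := by
      calc g * g = ppart 2 g * prest 2 g * (ppart 2 g * prest 2 g) := by rw [h1]
        _ = ppart 2 g * ppart 2 g * (prest 2 g * prest 2 g) := by rw [Commute.mul_mul_mul_comm h2.symm]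
        _ = _ := by rw [klein_pelt_sq P hP h3, one_mul]
    rw [e, ← pow_two] at hd
    exact h4 (hd.trans (orderOf_pow_dvd 2))
  have h : ∑ g : G, (1 + ∑ χ ∈ T, (a χ : ℂ) * (χ : G → ℂ) (g * g)) = 0 :=
    Finset.sum_eq_zero fun g _ => hrel _ (hreg g)
  rw [Finset.sum_add_distrib, Finset.sum_const, Finset.card_univ, nsmul_eq_mul, mul_one, ← Nat.card_eq_fintype_card,
    Finset.sum_comm] at h
  refine mul_left_cancel₀ (Nat.cast_ne_zero.2 Nat.card_pos.ne' : (Nat.card G : ℂ) ≠ 0) ?_
  rw [mul_zero, mul_add, mul_one, Finset.mul_sum]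
  refine Eq.trans ?_ h
  congr 1
  refine Finset.sum_congr rfl fun χ _ => ?_
  rw [← Finset.mul_sum, ind]
  field_simp

end CfsgLib.ZStar
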